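import Cfsg.Agent.H2.Rb.PPlus
import Cfsg.Agent.H948.Ppd.PmBase
import Cfsg.Agent.H948.Ppd.EdgeB
import Cfsg.Agent.H948.Ppd.IdB

/-!
# S3499, row `PΩ₈⁺(q)`: the fields of the cores with socle `PΩ±` in their own characteristic (helper814)

* `exists_card_plus` : `|F| ^ j = |K|` for the socle `PΩ⁺₂ₗ(K)`;
* `exists_card_minus` : `|F| ^ j = |K| ^ 2` for the socle `PΩ⁻₂ₗ₊₂(K)`.
-/

set_option autoImplicit false
set_option linter.unusedSectionVars false

namespace Cfsg.Agent.H814.O8P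

section plus

open Cfsg.Agent.H156.Ppd

open CoxeterSystem Cfsg.Agent.ChevalleyStructure.CoxeterGeom Cfsg.Agent.Tits.Roots Cfsg.Agent.Tits.Core
  Cfsg.Agent.Nodes.Reps Cfsg.Agent.Nodes.BNOf Cfsg.Agent.Nodes.Bruhat Cfsg.Agent.Nodes.RGDLib
open QuadraticMap
open Cfsg.Agent.LieClassical Cfsg.Agent.LieClassical.OrthCore Cfsg.Agent.LieClassical.OrthTrans
open Cfsg.Agent.LieClassical.OrthSimple Cfsg.Agent.LieClassical.OrthFinite Cfsg.Agent.LieClassical.OrthForms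
open Cfsg.Agent.TitsThree Cfsg.Agent.TitsThree.KSideO Cfsg.Agent.TitsThree.StdData
open Cfsg.Agent.Nodes Cfsg.Agent.Nodes.WittAll Cfsg.Agent.Nodes.WittInst Cfsg.Agent.Nodes.WittU
  Cfsg.Agent.TitsThree.Siegel Cfsg.Agent.TitsThree.SiegelGen
  Cfsg.Agent.TitsThree.WittFrame Cfsg.Agent.TitsThree.WBridge Cfsg.Agent.TitsThree.WittWeyl
  Cfsg.Agent.TitsThree.FrameCN
open Cfsg.Agent.Nodes.WittRoot (Mono)
open Cfsg.Agent.Nodes.WittRGD (Tor)
open Cfsg.Agent.H905.Md Cfsg.Agent.H915.LD Cfsg.Agent.H925.Nat Cfsg.Agent.H2.Rb.C100 Cfsg.Agent.H911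
open Cfsg.Agent.H2.Rb.C156
open Cfsg.Agent.H67.Cross
open Cfsg.Agent.KFacts.MulOdd.Inst (Lv)
open Cfsg.Agent.OddHalf.NI.Mult (up lo dg Coord)
open Cfsg Cfsg.Geo
open scoped MatrixGroups Matrix

universe u

/-- **the field of a core with socle `PΩ⁺₂ₗ(K)`** -/
theorem exists_card_plus {F : Type u} [Field F] [Finite F] {ι : Type} [Fintype ι] [DecidableEq ι]
    {P : Subgroup (GL ι F)} (hC : Core P) (p : ℕ) [hp : Fact p.Prime] [CharP F p]
    {K : Type} [Field K] [Fintype K] [CharP K p] {l : ℕ} (hl : 4 ≤ l)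
    (e : Soc P ≃* POmega K (quadFormPlus l K)) : ∃ j, 1 ≤ j ∧ Nat.card F ^ j = Nat.card K := by
  classical
  obtain ⟨d, rfl⟩ : ∃ d, l = d + 2 := ⟨l - 2, by omega⟩
  have hG : Good (plusForm (d + 2) K) := by
    apply good_of_finite (nondeg_plusForm (d + 2) K)
    rw [Module.finrank_fintype_fun_eq_card, Fintype.card_sum, Fintype.card_fin]
    omega
  rw [← coe_plusForm] at e
  have hfin := hfin (K := K) d
  have hA := amb_plus (F := K) (d + 2)
  have h0 := adm_plus (F := K) (d + 2)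
  have hWf : Finite (TypeD.M d).Group := TypeD.finite_W (TypeD.M d).toCoxeterSystem
  have hR := rgd_restrict (rgdD hA h0 (TypeD.M d).toCoxeterSystem (p := p))
    (E (plusForm (d + 2) K)) (fun x _ => rgD_le _ hA x) (fun i => WittRGDD.nn_mem hA i)
  have hperf : commutator ↥(E (plusForm (d + 2) K)) = ⊤ := Five.commutator_top hG.E_perfect
  have hG1 : G1 (TypeD.M d).toCoxeterSystem (TypeD.isCartan d) (XX d K) = ⊤ := by
    have h1 := G1D_eq_top (wplus (d + 2) K) (MonoidHom.id (E (plusForm (d + 2) K))) Function.surjective_id h0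
      (TypeD.M d).toCoxeterSystem
    rw [← h1]
    congr 1
    funext x
    exact (Subgroup.map_id _).symm
  obtain ⟨Y, _, _, f, φ, n₁, C⟩ := H156.Ppd.exists_cov hC hR hG1 hperf (toPOmega_surjective hG) e
  have hpp : p.Prime := Fact.out
  have rk : ∀ i, ∀ r : ℕ, r.Prime → r ≠ p → NoCE p r ↥(Lv (XX d K) i) := fun i r hr hne => noCE hpp i hr hne
  have hT : ∀ s ∈ (TT d K).comap f, ∀ t ∈ (TT d K).comap f, s * t = t * s :=
    comap_comm C.ker C.cop C.surj hR rk C.gen TT_comm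
  obtain ⟨a, ha⟩ : ∃ a : ℕ+, Fintype.card K = p ^ (a : ℕ) := ⟨(FiniteField.card K p).choose, (FiniteField.card K p).choose_spec.2⟩
  have hpow : ∀ t ∈ (TT d K).comap f, t ^ p ^ (a : ℕ) = t :=
    comap_pow C.ker C.cop C.surj hR rk C.gen TT_comm (TT_pow fun x => by rw [← ha]; exact FiniteField.pow_card x)
  obtain ⟨j, hj1, hj⟩ := C.exists_j hC hT a.pos.ne' hpow
  exact ⟨j, hj1, by rw [hj, Nat.card_eq_fintype_card, ha]⟩

end plus

section minus

open CoxeterSystem Cfsg.Agent.ChevalleyStructure.CoxeterGeom Cfsg.Agent.Tits.Roots Cfsg.Agent.Tits.Core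
  Cfsg.Agent.Nodes.Reps Cfsg.Agent.Nodes.BNOf Cfsg.Agent.Nodes.Bruhat Cfsg.Agent.Nodes.RGDLib
open Cfsg.Agent.Nodes Cfsg.Agent.Nodes.WittRoot Cfsg.Agent.Nodes.WittRGD Cfsg.Agent.Nodes.WittAll Cfsg.Agent.Nodes.WittInst
open Cfsg.Agent.Nodes.TypeC (isCartan)
open Cfsg.Agent.TitsThree.Siegel Cfsg.Agent.TitsThree.SiegelGen Cfsg.Agent.TitsThree.WittFrame Cfsg.Agent.TitsThree.FrameCN
  Cfsg.Agent.TitsThree.WBridge Cfsg.Agent.TitsThree.KSideO Cfsg.Agent.TitsThree Cfsg.Agent.TitsThree.StdData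
open Cfsg.Agent.LieClassical Cfsg.Agent.LieClassical.OrthCore Cfsg.Agent.LieClassical.OrthTrans
open Cfsg.Agent.LieClassical.OrthSimple Cfsg.Agent.LieClassical.OrthFinite Cfsg.Agent.LieClassical.OrthForms
open Cfsg.Agent.H915.LD Cfsg.Agent.H911 Cfsg.Agent.H905.Md Cfsg.Agent.H925.Nat Cfsg.Agent.Nodes.RGDLift
open Cfsg.Agent.H156.Ppd (Cov lrep exists_cov)
open Cfsg.Agent.Omega.CR Cfsg.Agent.Omega.FOne.Lift.Sd
open Cfsg.Agent.H948.Ppd Cfsg.Agent.H948.Ppd.Minus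
open Cfsg Cfsg.Geo QuadraticMap
open scoped MatrixGroups Matrix

universe u

/-- **the field of a core with socle `PΩ⁻₂ₗ₊₂(K)`** -/
theorem exists_card_minus {F : Type u} [Field F] [Finite F] {ι : Type} [Fintype ι] [DecidableEq ι]
    {P : Subgroup (GL ι F)} (hC : Core P) (p : ℕ) [hp : Fact p.Prime] [CharP F p]
    {K : Type} [Field K] [Fintype K] [CharP K p] {l : ℕ} (hl3 : 3 ≤ l) (a b : K)
    (hab : ∀ z₁ z₂ : K, z₁ ^ 2 + a * z₁ * z₂ + b * z₂ ^ 2 = 0 → z₁ = 0 ∧ z₂ = 0)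
    (e₁ : Soc P ≃* POmega K (quadFormMinus l K a b)) : ∃ j, 1 ≤ j ∧ Nat.card F ^ j = Nat.card K ^ 2 := by
  have hG := good_minus (m := l) hab (by omega)
  have hA := ambT_minus hab p (by omega) hG
  have hp0 := pc_ne (m := l) hab
  have e' := e₁
  rw [← coe_minusForm] at e'
  have hWf : Finite (CoxeterMatrix.B l).Group := TypeC.finite_W (CoxeterMatrix.B l).toCoxeterSystem
  have hperf : commutator ↥(MM hab hG).I = ⊤ := H911.Five.commutator_top hG.E_perfect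
  obtain ⟨Y, _, _, f, φ, n₁, C⟩ := exists_covB hC hA hp0 (by omega) hperf e'
  have hT' := torus_comm_minus hab hG (by omega) hA
  obtain ⟨hT, hpow⟩ := lift_comm_pow C hp0 hT' (N₀ := Nat.card K ^ 2) fun i => nodes hab hG hA i
  obtain ⟨f₀, -, hf₀⟩ := FiniteField.card K p
  rw [← Nat.card_eq_fintype_card] at hf₀
  obtain ⟨j, hj, hjK⟩ := C.exists_j hC hT (a := (f₀ : ℕ) * 2) (Nat.mul_ne_zero f₀.ne_zero two_ne_zero)
    (by rw [pow_mul, ← hf₀]; exact hpow)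
  rw [pow_mul, ← hf₀] at hjK
  exact ⟨j, hj, hjK⟩

end minus

end Cfsg.Agent.H814.O8P
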